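import Mathlib
import Cfsg.Prelude.Def_GeometricClasses

/-!
# From modules to matrices (helper679, S5731 AF5a)

* `exists_simple` : a finite group `L` with `L' = L` acting nontrivially on a finite module has a simple section on which
  it acts nontrivially;
* `exists_field` : the endomorphism ring of a simple module is a finite field;
* `exists_GL` : the matrices.
-/

set_option autoImplicit false

namespace Cfsg.Agent.H679.Af

open Subgroup
open scoped commutatorElement

universe u v

section sub

variable {L : Type v} [Group L] {X : Type u} [AddCommGroup X] [DistribMulAction L X]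

/-- the action on an invariant subgroup -/
@[reducible] def subAct (U : AddSubgroup X) (hU : ∀ (l : L), ∀ w ∈ U, l • w ∈ U) : DistribMulAction L U where
  smul l w := ⟨l • (w : X), hU l w w.2⟩
  one_smul w := Subtype.ext (one_smul L (w : X))
  mul_smul a b w := Subtype.ext (mul_smul a b (w : X))
  smul_zero a := Subtype.ext (smul_zero a)
  smul_add a v w := Subtype.ext (smul_add a (v : X) w)

/-- the action on the quotient by an invariant subgroup -/
@[reducible] def quotAct (U : AddSubgroup X) (hU : ∀ (l : L), ∀ w ∈ U, l • w ∈ U) : DistribMulAction L (X ⧸ U) where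
  smul l := QuotientAddGroup.map U U (DistribSMul.toAddMonoidHom X l) fun w hw => hU l w hw
  one_smul w := by
    induction w using QuotientAddGroup.induction_on with
    | H w => exact congrArg (QuotientAddGroup.mk (s := U)) (one_smul L w)
  mul_smul a b w := by
    induction w using QuotientAddGroup.induction_on with
    | H w => exact congrArg (QuotientAddGroup.mk (s := U)) (mul_smul a b w)
  smul_zero a := map_zero _
  smul_add a v w := map_add _ _ _

/-- a perfect group which acts trivially on `U` and `X / U` acts trivially -/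
theorem trivial_of {U : AddSubgroup X} (hL : commutator L = ⊤) (h1 : ∀ (l : L), ∀ w ∈ U, l • w = w)
    (h2 : ∀ (l : L) (x : X), l • x - x ∈ U) (l : L) (x : X) : l • x = x := by
  let φ : L →* Multiplicative X :=
    { toFun := fun l => Multiplicative.ofAdd (l • x - x)
      map_one' := by rw [one_smul, sub_self]; rfl
      map_mul' := fun a b => by
        rw [← ofAdd_add]
        congr 1
        have h3 := h1 a _ (h2 b x)
        rw [smul_sub] at h3
        rw [mul_smul]
        have h4 : a • b • x = b • x - x + a • x := by rw [← h3]; abel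
        rw [h4]; abel }
  have h3 : l ∈ φ.ker := by
    have h4 := Abelianization.commutator_subset_ker φ
    rw [hL] at h4
    exact h4 (mem_top l)
  have h5 : Multiplicative.ofAdd (l • x - x) = 1 := h3
  exact sub_eq_zero.1 (Multiplicative.ofAdd.injective h5)

end sub

/-- **A simple section.** -/
theorem exists_simple {L : Type v} [Group L] (hL : commutator L = ⊤) {p : ℕ} : ∀ (n : ℕ) (X : Type u) [AddCommGroup X]
    [Finite X] [DistribMulAction L X], Nat.card X ≤ n → (∀ x : X, p • x = 0) → (∃ (l : L) (x : X), l • x ≠ x) →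
    ∃ (W : Type u) (_ : AddCommGroup W) (_ : Finite W) (_ : DistribMulAction L W), (∀ w : W, p • w = 0) ∧
      (∃ (l : L) (w : W), l • w ≠ w) ∧ (∀ U : AddSubgroup W, (∀ (l : L), ∀ w ∈ U, l • w ∈ U) → U = ⊥ ∨ U = ⊤) ∧
      Nat.card W ≤ Nat.card X := by
  intro n
  induction n with
  | zero =>
    intro X _ _ _ hn
    have := Nat.card_pos (α := X)
    omega
  | succ n ih =>
    intro X _ _ _ hn hp hne
    by_cases hs : ∀ U : AddSubgroup X, (∀ (l : L), ∀ w ∈ U, l • w ∈ U) → U = ⊥ ∨ U = ⊤
    · exact ⟨X, inferInstance, inferInstance, inferInstance, hp, hne, hs, le_rfl⟩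
    push Not at hs
    obtain ⟨U, hU, hb, ht⟩ := hs
    have hmul := AddSubgroup.card_eq_card_quotient_mul_card_addSubgroup U
    have hc1 : 1 < Nat.card U := by
      rw [Finite.one_lt_card_iff_nontrivial]
      exact (AddSubgroup.nontrivial_iff_ne_bot U).2 hb
    have hc2 : 1 < Nat.card (X ⧸ U) := by
      rw [Finite.one_lt_card_iff_nontrivial]
      exact QuotientAddGroup.nontrivial_iff.2 ht
    by_cases h1 : ∀ (l : L), ∀ w ∈ U, l • w = w
    · by_cases h2 : ∀ (l : L) (x : X), l • x - x ∈ U
      · obtain ⟨l, x, hx⟩ := hne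
        exact absurd (trivial_of hL h1 h2 l x) hx
      · push Not at h2
        obtain ⟨l, x, hx⟩ := h2
        let _ := quotAct U hU
        have hlt : Nat.card (X ⧸ U) < Nat.card X := by
          rw [hmul]
          exact lt_mul_of_one_lt_right (by omega) hc1
        obtain ⟨W, i1, i2, i3, a1, a2, a3, a4⟩ := ih (X ⧸ U) (by omega) (fun y => by
            induction y using QuotientAddGroup.induction_on with
            | H y =>
              rw [← QuotientAddGroup.mk_nsmul, hp]
              rfl) ⟨l, (x : X ⧸ U), fun h => hx (by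
            have h3 : ((l • x : X) : X ⧸ U) = (x : X ⧸ U) := h
            rw [QuotientAddGroup.eq] at h3
            have h4 := U.neg_mem h3
            have h5 : -(-(l • x) + x) = l • x - x := by abel
            rwa [h5] at h4)⟩
        exact ⟨W, i1, i2, i3, a1, a2, a3, a4.trans hlt.le⟩
    · push Not at h1
      obtain ⟨l, w, hw, hlw⟩ := h1
      let _ := subAct U hU
      have hlt : Nat.card U < Nat.card X := by
        rw [hmul]
        exact lt_mul_of_one_lt_left (by omega) hc2
      obtain ⟨W, i1, i2, i3, a1, a2, a3, a4⟩ := ih U (by omega) (fun y => Subtype.ext (hp y))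
        ⟨l, ⟨w, hw⟩, fun h => hlw (congrArg Subtype.val h)⟩
      exact ⟨W, i1, i2, i3, a1, a2, a3, a4.trans hlt.le⟩

/-- **Schur and Wedderburn.** -/
theorem exists_field {L : Type v} [Group L] {W : Type u} [AddCommGroup W] [Finite W] [Nontrivial W]
    [DistribMulAction L W] (hs : ∀ U : AddSubgroup W, (∀ (l : L), ∀ w ∈ U, l • w ∈ U) → U = ⊥ ∨ U = ⊤) :
    ∃ (F : Type u) (_ : Field F) (_ : Finite F) (_ : Module F W),
      (∀ (c : F) (l : L) (w : W), c • (l • w) = l • (c • w)) ∧
      (∀ φ : W →+ W, (∀ (l : L) (w : W), φ (l • w) = l • φ w) → ∃ c : F, ∀ w, φ w = c • w) := by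
  let R : Subring (AddMonoid.End W) := Subring.centralizer (Set.range (DistribMulAction.toAddMonoidEnd L W))
  have hfin : Finite (AddMonoid.End W) := Finite.of_injective (fun f : AddMonoid.End W => (f : W → W)) DFunLike.coe_injective
  have hR : ∀ (r : R) (l : L) (w : W), (r : AddMonoid.End W) (l • w) = l • (r : AddMonoid.End W) w := by
    intro r l w
    have h1 := Subring.mem_centralizer_iff.1 r.2 _ ⟨l, rfl⟩
    exact (DFunLike.congr_fun h1 w).symm
  have hinj : ∀ r : R, r ≠ 0 → ∀ w : W, (r : AddMonoid.End W) w = 0 → w = 0 := by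
    intro r hr w hw
    have h1 := hs (AddMonoidHom.ker (r : AddMonoid.End W)) (fun l v hv => by
      have hv' : (r : AddMonoid.End W) v = 0 := hv
      show (r : AddMonoid.End W) (l • v) = 0
      rw [hR, hv', smul_zero])
    rcases h1 with h1 | h1
    · have h2 : w ∈ AddMonoidHom.ker (r : AddMonoid.End W) := hw
      rw [h1] at h2
      exact AddSubgroup.mem_bot.1 h2
    · exfalso
      apply hr
      apply Subtype.ext
      apply AddMonoidHom.ext
      intro v
      have h2 : v ∈ AddMonoidHom.ker (r : AddMonoid.End W) := by rw [h1]; exact AddSubgroup.mem_top v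
      exact h2
  obtain ⟨x₀, hx₀⟩ := exists_ne (0 : W)
  have : Nontrivial R := ⟨⟨0, 1, by
    intro h
    have h2 : (0 : AddMonoid.End W) = 1 := congrArg Subtype.val h
    have h3 := DFunLike.congr_fun h2 x₀
    exact hx₀ h3.symm⟩⟩
  have : NoZeroDivisors R := ⟨by
    intro a b hab
    by_contra hne
    rw [not_or] at hne
    have h4 : (a : AddMonoid.End W) ((b : AddMonoid.End W) x₀) = 0 := by
      have := congrArg (fun r : R => (r : AddMonoid.End W) x₀) hab
      exact this
    exact hx₀ (hinj b hne.2 _ (hinj a hne.1 _ h4))⟩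
  have : IsDomain R := NoZeroDivisors.to_isDomain R
  let _ : Field R := (Finite.isDomain_to_isField R).toField
  let _ : Module R W := inferInstance
  refine ⟨R, inferInstance, inferInstance, inferInstance, fun c l w => hR c l w, fun φ hφ => ?_⟩
  refine ⟨⟨(φ : AddMonoid.End W), Subring.mem_centralizer_iff.2 ?_⟩, fun w => rfl⟩
  rintro _ ⟨l, rfl⟩
  apply AddMonoidHom.ext
  intro w
  exact (hφ l w).symm

/-- **From modules to matrices**, general form. -/
theorem exists_GL_gen {p : ℕ} {T : Type v} [Group T] [IsSimpleGroup T]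
    {L : Type v} [Group L] (hL : commutator L = ⊤)
    (e : L ⧸ Subgroup.center L ≃* T) {X : Type u} [AddCommGroup X] [Finite X] [DistribMulAction L X]
    (hX : ∀ x : X, p • x = 0) (hne : ∃ (l : L) (x : X), l • x ≠ x) :
    ∃ (F : Type u) (_ : Field F) (_ : Finite F) (n : ℕ) (P : Subgroup (Matrix.GeneralLinearGroup (Fin n) F)),
      ((p : ℕ) : F) = 0 ∧ ⁅P, P⁆ = P ∧ Nonempty ((P ⧸ (Cfsg.Geo.scalars (Fin n) F).subgroupOf P) ≃* T) ∧
      Nat.card F ^ n ≤ Nat.card X := by
  obtain ⟨W, i1, i2, i3, hp, ⟨l₀, w₀, hlw⟩, hs, hcard⟩ := exists_simple hL (Nat.card X) X le_rfl hX hne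
  have hnt : Nontrivial W := ⟨⟨l₀ • w₀, w₀, hlw⟩⟩
  obtain ⟨F, j1, j2, j3, hF, hend⟩ := exists_field (L := L) (W := W) hs
  -- the representation
  let ρ₀ : L →* Module.End F W :=
    { toFun := fun l =>
        { toFun := fun w => l • w
          map_add' := fun a b => smul_add l a b
          map_smul' := fun c w => (hF c l w).symm }
      map_one' := LinearMap.ext fun w => one_smul L w
      map_mul' := fun a b => LinearMap.ext fun w => mul_smul a b w }
  let b := Module.finBasis F W
  let n := Module.finrank F W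
  let τ : Module.End F W →* Matrix (Fin n) (Fin n) F := (LinearMap.toMatrixAlgEquiv b : _ →* _)
  let ρ : L →* Matrix.GeneralLinearGroup (Fin n) F := MonoidHom.toHomUnits (τ.comp ρ₀)
  have hρ : ∀ l : L, ρ l ∈ Cfsg.Geo.scalars (Fin n) F ↔ ∃ c : Fˣ, ∀ w : W, l • w = (c : F) • w := by
    intro l
    rw [Cfsg.Geo.mem_scalars_iff]
    refine exists_congr fun c => ?_
    have h1 : ((ρ l : Matrix.GeneralLinearGroup (Fin n) F) : Matrix (Fin n) (Fin n) F) =
      LinearMap.toMatrixAlgEquiv b (ρ₀ l) := rfl
    have h2 : (c : F) • (1 : Matrix (Fin n) (Fin n) F) = LinearMap.toMatrixAlgEquiv b ((c : F) • 1) := by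
      rw [map_smul, map_one]
    rw [h1, h2, (LinearMap.toMatrixAlgEquiv b).injective.eq_iff]
    constructor
    · intro h w
      exact LinearMap.congr_fun h w
    · intro h
      exact LinearMap.ext h
  let ψ : L →* (ρ.range ⧸ (Cfsg.Geo.scalars (Fin n) F).subgroupOf ρ.range) :=
    (QuotientGroup.mk' ((Cfsg.Geo.scalars (Fin n) F).subgroupOf ρ.range)).comp ρ.rangeRestrict
  have hψs : Function.Surjective ψ := (QuotientGroup.mk'_surjective _).comp ρ.rangeRestrict_surjective
  have hψ : ∀ l : L, l ∈ ψ.ker ↔ ∃ c : Fˣ, ∀ w : W, l • w = (c : F) • w := by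
    intro l
    rw [← hρ, MonoidHom.mem_ker]
    show (QuotientGroup.mk' _ (ρ.rangeRestrict l)) = 1 ↔ _
    rw [QuotientGroup.mk'_apply, QuotientGroup.eq_one_iff, mem_subgroupOf]
    rfl
  have hZ : center L ≤ ψ.ker := by
    intro z hz
    rw [hψ]
    obtain ⟨c, hc⟩ := hend (DistribSMul.toAddMonoidHom W z) (fun l w => by
      show z • (l • w) = l • (z • w)
      rw [← mul_smul, ← mul_smul, (mem_center_iff.1 hz l)])
    have hc0 : c ≠ 0 := by
      rintro rfl
      have h1 : z • w₀ = (0 : F) • w₀ := hc w₀
      have h2 : z • (l₀ • w₀) = (0 : F) • (l₀ • w₀) := hc _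
      rw [zero_smul] at h1 h2
      rw [smul_eq_zero_iff_eq] at h1 h2
      exact hlw (h2.trans h1.symm)
    exact ⟨Units.mk0 c hc0, fun w => hc w⟩
  have hK : ψ.ker = center L := by
    have hsimp : IsSimpleGroup (L ⧸ center L) := (MulEquiv.isSimpleGroup_congr e).2 inferInstance
    have hn : (ψ.ker.map (QuotientGroup.mk' (center L))).Normal :=
      Subgroup.Normal.map inferInstance _ (QuotientGroup.mk'_surjective _)
    rcases hn.eq_bot_or_eq_top with h | h
    · refine le_antisymm ?_ hZ
      rw [Subgroup.map_eq_bot_iff, QuotientGroup.ker_mk'] at h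
      exact h
    · exfalso
      have h1 : ψ.ker = ⊤ := by
        have h2 := congrArg (Subgroup.comap (QuotientGroup.mk' (center L))) h
        rw [Subgroup.comap_map_eq, QuotientGroup.ker_mk', sup_eq_left.2 hZ, Subgroup.comap_top] at h2
        exact h2
      -- everything acts by scalars
      have h3 : ∀ l : L, ∃ c : Fˣ, ∀ w : W, l • w = (c : F) • w := fun l => (hψ l).1 (by rw [h1]; exact mem_top l)
      have h4 : commutator L ≤ ρ₀.ker := by
        rw [commutator_def, Subgroup.commutator_le]
        intro a _ c _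
        rw [MonoidHom.mem_ker]
        refine LinearMap.ext fun w => ?_
        show (⁅a, c⁆ : L) • w = w
        obtain ⟨x, hx⟩ := h3 a
        obtain ⟨y, hy⟩ := h3 c
        rw [commutatorElement_def, show a * c * a⁻¹ * c⁻¹ = (a * c) * (c * a)⁻¹ by group, mul_smul]
        have h6 : (a * c) • ((c * a)⁻¹ • w) = (c * a) • ((c * a)⁻¹ • w) := by
          rw [mul_smul a c, mul_smul c a, hy, hx, hx, hy, smul_smul, smul_smul, mul_comm (x : F)]
        rw [h6, smul_inv_smul]
      have h5 : l₀ ∈ ρ₀.ker := h4 (by rw [hL]; exact mem_top _)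
      exact hlw (LinearMap.congr_fun (MonoidHom.mem_ker.1 h5) w₀)
  refine ⟨F, j1, j2, n, ρ.range, ?_, ?_, ⟨?_⟩, ?_⟩
  · have h1 : ((p : ℕ) : F) • w₀ = 0 := by rw [Nat.cast_smul_eq_nsmul, hp]
    have h2 : ((p : ℕ) : F) • (l₀ • w₀) = 0 := by rw [Nat.cast_smul_eq_nsmul, hp]
    rcases smul_eq_zero.1 h1 with h | h
    · exact h
    rcases smul_eq_zero.1 h2 with h' | h'
    · exact h'
    · exact absurd (h'.trans h.symm) hlw
  · have h1 : ⁅(⊤ : Subgroup L).map ρ, (⊤ : Subgroup L).map ρ⁆ = (⊤ : Subgroup L).map ρ := by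
      rw [← Subgroup.map_commutator, ← commutator_def, hL]
    rwa [← MonoidHom.range_eq_map] at h1
  · exact ((QuotientGroup.quotientKerEquivOfSurjective ψ hψs).symm.trans (QuotientGroup.quotientMulEquivOfEq hK)).trans e
  · rw [← Module.natCard_eq_pow_finrank]
    exact hcard

set_option linter.unusedVariables false in
/-- **From modules to matrices** (AF5a of S5731). -/
theorem exists_GL {p : ℕ} (hp : p.Prime) {T : Type v} [Group T] [Finite T] [IsSimpleGroup T]
    (hT : ¬ IsMulCommutative T) {L : Type v} [Group L] [Finite L] (hL : commutator L = ⊤)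
    (e : L ⧸ Subgroup.center L ≃* T) {X : Type u} [AddCommGroup X] [Finite X] [DistribMulAction L X]
    (hX : ∀ x : X, p • x = 0) (hne : ∃ (l : L) (x : X), l • x ≠ x) :
    ∃ (F : Type u) (_ : Field F) (_ : Finite F) (n : ℕ) (P : Subgroup (Matrix.GeneralLinearGroup (Fin n) F)),
      ((p : ℕ) : F) = 0 ∧ ⁅P, P⁆ = P ∧ Nonempty ((P ⧸ (Cfsg.Geo.scalars (Fin n) F).subgroupOf P) ≃* T) ∧
      Nat.card F ^ n ≤ Nat.card X :=
  exists_GL_gen hL e hX hne

end Cfsg.Agent.H679.Af
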